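import Cfsg.Agent.Sg.Dade1

/-! A Dade type normal complement theorem. -/

set_option autoImplicit false
set_option linter.unusedSectionVars false

namespace Cfsg.Agent.Sg

open Cfsg Subgroup MulAction Finset Cfsg.Agent.Bd Cfsg.Agent.H5.Char Cfsg.Agent.H2.Tr
open scoped ComplexConjugate

theorem orbit_sum {G Ω : Type*} [Group G] [Finite G] [MulAction G Ω] [Fintype Ω] (Φ : Ω → ℂ)
    (h1 : ∀ (g : G) B, Φ (g • B) = Φ B) (h2 : ∀ B, ∃ m : ℤ, Φ B = Nat.card (stabilizer G B) * m) :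
    ∃ m : ℤ, ∑ B, Φ B = Nat.card G * m := by
  classical
  choose m hm using h2
  have := Fintype.ofFinite (orbitRel.Quotient G Ω)
  refine ⟨∑ ω : orbitRel.Quotient G Ω, m ω.out, ?_⟩
  rw [← sum_fiberwise univ (fun B => (Quotient.mk'' B : orbitRel.Quotient G Ω)), Int.cast_sum, mul_sum]
  refine sum_congr rfl fun ω _ => ?_
  have e : ∀ B, (Quotient.mk'' B : orbitRel.Quotient G Ω) = ω ↔ B ∈ orbit G ω.out := fun B => by
    rw [← orbitRel_apply, ← Quotient.eq'', Quotient.mk''_eq_mk, Quotient.out_eq]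
  rw [sum_congr rfl (g := fun _ => Φ ω.out) fun B hB => by
    obtain ⟨g, rfl⟩ := (e B).1 (mem_filter.1 hB).2
    exact h1 g _, sum_const, nsmul_eq_mul, hm, ← mul_assoc, ← (stabilizer G ω.out).index_mul_card,
    index_stabilizer, Set.ncard_eq_toFinset_card', Nat.cast_mul]
  congr 4
  ext B
  simp [e]

variable {C : Type*} [Group C] [Fintype C] {W : Subgroup C} {e k : ℕ}

/-- finiteness of subgroups -/
@[reducible] noncomputable def ftS (X : Subgroup C) : Fintype X := Fintype.ofFinite X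

attribute [local instance] ftS

open Classical in
/-- extension of a class function along fusion -/
noncomputable def xt (W : Subgroup C) (α : W → ℂ) (y : C) : ℂ :=
  if h : ∃ c, c⁻¹ * y * c ∈ W then α ⟨_, h.choose_spec⟩ else 0

theorem DH.xt_eq (h : DH W) {α : W → ℂ} (hα : IsClassFunction W α) {y c : C} (hc : c⁻¹ * y * c ∈ W) :
    xt W α y = α ⟨_, hc⟩ := by
  have h1 : ∃ c, c⁻¹ * y * c ∈ W := ⟨c, hc⟩
  rw [xt, dif_pos h1]
  have h2 := h1.choose_spec
  obtain ⟨x, hx, e⟩ := h.fus hc (c := c⁻¹ * h1.choose) (by simpa [mul_assoc] using h2)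
  rw [← cl' hα ⟨_, hc⟩ ⟨x, hx⟩]
  congr 1
  exact Subtype.ext (by simpa [mul_assoc] using e)

theorem xt_ne {α : W → ℂ} {y : C} (h : xt W α y ≠ 0) : ∃ c, c⁻¹ * y * c ∈ W := by
  by_contra hc
  exact h (dif_neg hc)

theorem DH.xt_cl (h : DH W) {α : W → ℂ} (hα : IsClassFunction W α) : IsClassFunction C (xt W α) :=
  fun y g => by
    by_cases h1 : ∃ c, c⁻¹ * y * c ∈ W
    · obtain ⟨c, hc⟩ := h1
      rw [h.xt_eq hα hc, h.xt_eq hα (c := g * c) (by simpa [mul_assoc] using hc)]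
      congr 1
      exact Subtype.ext (by simp [mul_assoc])
    · rw [xt, xt, dif_neg h1, dif_neg fun ⟨c, hc⟩ => h1 ⟨g⁻¹ * c, by simpa [mul_assoc] using hc⟩]

theorem DH.sum (h : DH W) (H : Ex C (Nat.card W) e k) {F : C → ℂ} (hF : IsClassFunction C F)
    (h0 : ∀ y, F y ≠ 0 → y ≠ 1 ∧ ∃ c, c⁻¹ * y * c ∈ W) :
    ∑ g, F (g ^ e) = W.index * ∑ w : W, F w := by
  classical
  have := Fintype.ofFinite (C ⧸ W)
  rw [← sum_fiberwise univ (fun g => g ^ e)]
  have e1 : ∀ y, ∑ g ∈ univ.filter (fun g => g ^ e = y), F (g ^ e) =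
      ∑ x : C ⧸ W, if y • x = x then F y else 0 := fun y => by
    rw [sum_congr rfl (g := fun _ => F y) fun g hg => by rw [(mem_filter.1 hg).2], ← sum_filter,
      sum_const, sum_const]
    by_cases a : F y = 0
    · simp [a]
    obtain ⟨a1, c, a2⟩ := h0 y a
    have := h.count H a1 a2
    rw [Set.ncard_eq_toFinset_card', Set.ncard_eq_toFinset_card', Set.toFinset_setOf,
      Set.toFinset_setOf] at this
    rw [this]
  simp only [e1]
  rw [sum_comm, index, Nat.card_eq_fintype_card, ← nsmul_eq_mul, ← card_univ, ← sum_const]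
  refine sum_congr rfl fun x _ => ?_
  obtain ⟨c, rfl⟩ := QuotientGroup.mk_surjective x
  rw [← (MulAut.conj c).toEquiv.sum_comp, ← sum_filter, ← sum_subtype (univ.filter (· ∈ W)) (by simp)]
  refine sum_congr (filter_congr fun y _ => ?_) fun y _ => hF y c
  rw [smul_mk_iff]
  simp [mul_assoc]

/-- finite subsets with the conjugation action -/
structure FS (C : Type*) where
  /-- the underlying finite set -/
  s : Finset C

theorem FS.ext {A B : FS C} (h : ∀ x, x ∈ A.s ↔ x ∈ B.s) : A = B := congrArg FS.mk (Finset.ext h)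

noncomputable instance : Fintype (FS C) :=
  Fintype.ofInjective FS.s fun _ _ e => congrArg FS.mk e

open Classical in
noncomputable instance : MulAction C (FS C) where
  smul g B := ⟨B.s.image fun x => g * x * g⁻¹⟩
  one_smul B := congrArg FS.mk (by simp)
  mul_smul g h B := congrArg FS.mk (by
    change _ = image _ (image _ B.s)
    rw [image_image]
    congr 1
    ext x
    simp [mul_assoc])

theorem mem_smul_s {g x : C} {B : FS C} : x ∈ (g • B).s ↔ g⁻¹ * x * g ∈ B.s := by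
  classical
  refine mem_image.trans ⟨?_, fun h => ⟨_, h, by simp [mul_assoc]⟩⟩
  rintro ⟨y, hy, rfl⟩
  simpa [mul_assoc] using hy

theorem card_smul_s (g : C) (B : FS C) : (g • B).s.card = B.s.card := by
  classical
  exact card_image_of_injective _ (MulAut.conj g).injective

theorem stab_norm {B : FS C} {g : C} (hg : g • B = B) :
    ∀ y ∈ closure (B.s : Set C), g * y * g⁻¹ ∈ closure (B.s : Set C) :=
  cj_le.1 (map_le_iff_le_comap.2 ((closure_le _).2 fun y hy => subset_closure (by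
    rw [← hg]
    exact mem_smul_s.2 (by simpa [mul_assoc] using hy))))

/-- the subsets considered -/
def DD (W : Subgroup C) (B : FS C) : Prop := 1 ∉ B.s ∧ ∃ x : C ⧸ W, ∀ y ∈ B.s, y • x = x

theorem DD_smul (g : C) (B : FS C) : DD W (g • B) ↔ DD W B := by
  have : ∀ (g : C) (B : FS C), DD W B → DD W (g • B) := fun g B ⟨h1, x, h2⟩ =>
    ⟨by simpa [mem_smul_s] using h1, g • x, fun y hy => by
      have := h2 _ (mem_smul_s.1 hy)
      rwa [mul_smul, mul_smul, inv_smul_eq_iff] at this⟩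
  exact ⟨fun h => by simpa using this g⁻¹ _ h, this g B⟩

theorem ne_bot_of {B : FS C} (h1 : 1 ∉ B.s) (h2 : B.s.Nonempty) : closure (B.s : Set C) ≠ ⊥ := fun e => by
  obtain ⟨y, hy⟩ := h2
  exact h1 ((e.le (subset_closure hy) : y = 1) ▸ hy)

open Classical in
theorem DH.euler (h : DH W) (H : Ex C (Nat.card W) e k) {g c : C} (h1 : g ^ e ≠ 1)
    (h2 : c⁻¹ * g ^ e * c ∈ W) :
    ∑ B ∈ univ.filter (fun B : FS C => DD W B ∧ g • B = B), (-1 : ℂ) ^ B.s.card = 0 := by
  set y := g ^ e with hy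
  have cm : g⁻¹ * y * g = y := by
    rw [mul_assoc, ((Commute.refl g).pow_left e).eq, inv_mul_cancel_left]
  have cm' : ∀ x, g⁻¹ * x * g = y ↔ x = y := fun x => by
    conv_lhs => rw [← cm]
    simp
  refine sum_involution (fun B _ => ⟨if y ∈ B.s then B.s.erase y else insert y B.s⟩) (fun B _ => ?_)
    (fun B _ _ e => ?_) (fun B hB => ?_) fun B _ => FS.ext fun z => ?_
  · by_cases a : y ∈ B.s
    · simp only [if_pos a]
      rw [← card_erase_add_one a]; ring
    · simp only [if_neg a, card_insert_of_notMem a]; ring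
  · replace e := congrArg (y ∈ FS.s ·) e
    by_cases a : y ∈ B.s <;> simp [a] at e
  · obtain ⟨⟨b1, x, b2⟩, b3⟩ := (mem_filter.1 hB).2
    have b4 : ∀ z, g⁻¹ * z * g ∈ B.s ↔ z ∈ B.s := fun z => by rw [← mem_smul_s, b3]
    refine mem_filter.2 ⟨mem_univ _, ?_⟩
    by_cases a : y ∈ B.s
    · rw [if_pos a]
      exact ⟨⟨fun m => b1 (mem_of_mem_erase m), x, fun z hz => b2 z (mem_of_mem_erase hz)⟩,
        FS.ext fun z => mem_smul_s.trans (by simp only [mem_erase, ne_eq, cm', b4])⟩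
    · rw [if_neg a]
      refine ⟨⟨fun m => (mem_insert.1 m).elim h1.symm b1, ?_⟩, FS.ext fun z => mem_smul_s.trans (by
          simp only [mem_insert, cm', b4])⟩
      suffices ∃ x : C ⧸ W, (∀ z ∈ B.s, z • x = x) ∧ y • x = x by
        obtain ⟨x, a1, a2⟩ := this
        exact ⟨x, fun z hz => (mem_insert.1 hz).elim (fun e => e ▸ a2) (a1 z)⟩
      rcases B.s.eq_empty_or_nonempty with e | e
      · exact ⟨c, by simp [e], smul_mk_iff.2 h2⟩
      obtain ⟨x, a1, a2⟩ := h.fix (ne_bot_of b1 e) ((closure_le _).2 b2) _ y rfl (H.h2 g)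
        (stab_norm ((stabilizer C B).pow_mem b3 _))
      exact ⟨x, fun z hz => a1 (subset_closure hz), a2⟩
  · by_cases a : y ∈ B.s <;> simp [a, insert_erase, erase_insert]

theorem ch_inner {N : Subgroup C} {f : N → ℂ} {n : Irr N → ℕ} (h : Ch f n) (χ : Irr C) :
    ∃ m : ℕ, classInner f (fun g : N => χ.1 g) = m := by
  refine ⟨∑ ψ, n ψ * mult χ ψ, ?_⟩
  rw [show f = fun g => ∑ φ, n φ * φ.1 g from funext h, inner_sum_left]
  simp [inner_mul_left, mult_eq']

theorem DH.local (h : DH W) (H : Ex C (Nat.card W) e k) (θ : Irr W) (χ : Irr C) {B : FS C}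
    (h1 : 1 ∉ B.s) (h2 : B.s.Nonempty) (h3 : ∀ y ∈ B.s, y ∈ W) :
    ∃ m : ℤ, ∑ g : stabilizer C B, xt W (fun w => θ.1 w - θ.1 1) ((g : C) ^ e) * conj (χ.1 g) =
      Nat.card (stabilizer C B) * m := by
  have a1 : closure (B.s : Set C) ≤ W := (closure_le _).2 h3
  obtain ⟨S, hS⟩ := h _ a1 (ne_bot_of h1 h2)
  obtain ⟨ρ, hρ⟩ := hS.exists_hom a1 (stabilizer C B) fun g hg => stab_norm hg
  have a2 : ∀ g : stabilizer C B, xt W (fun w => θ.1 w - θ.1 1) ((g : C) ^ e) = θ.1 (ρ g) - θ.1 1 := fun g => by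
    obtain ⟨x, b1, b2⟩ := h.fix (ne_bot_of h1 h2) (x := ((1 : C) : C ⧸ W))
      (fun y hy => smul_mk_iff.2 (by simpa using a1 hy)) _ ((g : C) ^ e) rfl (H.h2 g) (stab_norm (g ^ e).2)
    obtain ⟨c, rfl⟩ := QuotientGroup.mk_surjective x
    obtain ⟨s, hs, b3⟩ := hS.fac c fun y hy => smul_mk_iff.1 (b1 hy)
    rw [← QuotientGroup.eq.2 b3, smul_mk_iff] at b2
    rw [h.xt_eq (fun a b => by simp only [cl θ a b]) b2]
    have m : s ∈ stabilizer C B := FS.ext fun z => mem_smul_s.trans ⟨fun a => by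
      have := hS.cen hs _ (subset_closure a)
      rwa [show s⁻¹ * z * s = z by
        rw [mul_assoc s⁻¹, mul_inv_cancel_left, mul_left_inj] at this
        rwa [mul_assoc]] at a, fun a => by
      rwa [mul_assoc, hS.cen hs _ (subset_closure a), inv_mul_cancel_left]⟩
    have b4 : ρ ⟨s, m⟩ = 1 := (hρ _ _).2 (by simpa using hs)
    have b5 : ρ (⟨s, m⟩⁻¹ * g ^ e * ⟨s, m⟩) = ⟨_, b2⟩ := (hρ _ _).2 (by simp)
    rw [map_mul, map_mul, map_inv, b4, map_pow, H.mem] at b5
    rw [← b5]; simp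
  obtain ⟨n, hn⟩ : ∃ n, Ch (fun g => θ.1 (ρ g)) n := by
    obtain ⟨θ, n, σ, -, rfl⟩ := θ
    exact ch_rep (σ.comp ρ)
  obtain ⟨m, hm⟩ := ch_inner hn χ
  refine ⟨m - deg θ * mult χ (triv (stabilizer C B)), ?_⟩
  have a3 := mult_eq' (X := stabilizer C B) χ (triv _)
  simp only [classInner, triv_apply, one_mul] at hm a3
  push_cast
  simp only [a2]
  simp only [sub_mul, sum_sub_distrib, ← mul_sum, deg_eq, ← hm, ← a3]
  have : (Nat.card (stabilizer C B) : ℂ) ≠ 0 := card_ne
  field_simp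

theorem DH.int (h : DH W) (H : Ex C (Nat.card W) e k) (θ : Irr W) (χ : Irr C) :
    ∃ m : ℤ, classInner (fun g => xt W (fun w => θ.1 w - θ.1 1) (g ^ e)) χ.1 = m := by
  classical
  have c0 : IsClassFunction W fun w => θ.1 w - θ.1 1 := fun a b => by simp only [cl θ a b]
  set φ : C → ℂ := fun g => xt W (fun w => θ.1 w - θ.1 1) (g ^ e) * conj (χ.1 g) with hφ
  have c1 : ∀ g c, φ (c * g * c⁻¹) = φ g := fun g c => by
    simp only [hφ, conj_pow, cl χ g c, h.xt_cl c0 (g ^ e) c]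
  set I : FS C → ℂ := fun B => ∑ g, if g • B = B then φ g else 0 with hI
  have c2 : ∀ (c : C) B, I (c • B) = I B := fun c B => by
    simp only [hI]
    rw [← (MulAut.conj c).toEquiv.sum_comp]
    simp [c1, mul_smul]
  have c3 : ∑ B, (if DD W B then (-1) ^ B.s.card * I B else 0) = 0 := by
    simp only [hI, mul_sum, ite_sum_zero]
    rw [sum_comm]
    refine sum_eq_zero fun g _ => ?_
    by_cases a : φ g = 0
    · simp [a]
    have a1 := left_ne_zero_of_mul a
    obtain ⟨c, hc⟩ := xt_ne a1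
    have := h.euler H (fun e => a1 (by
      rw [e, h.xt_eq c0 (c := 1) (by simp)]
      simp [← show (1 : W) = ⟨1, W.one_mem⟩ from rfl])) hc
    replace this := congrArg (· * φ g) this
    simp only [sum_mul, sum_filter, zero_mul] at this
    refine (sum_congr rfl fun B _ => ?_).trans this
    by_cases b1 : DD W B <;> by_cases b2 : g • B = B <;> simp [b1, b2]
  obtain ⟨m, hm⟩ := orbit_sum (G := C)
    (fun B : FS C => if B.s.Nonempty ∧ DD W B then (-1) ^ B.s.card * I B else 0)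
    (fun g B => by simp only [← card_pos, card_smul_s, DD_smul, c2]) fun B => by
    by_cases a : B.s.Nonempty ∧ DD W B
    swap
    · exact ⟨0, by simp [a]⟩
    obtain ⟨x, hx⟩ := a.2.2
    obtain ⟨c, rfl⟩ := QuotientGroup.mk_surjective x
    obtain ⟨m, hm⟩ := h.local H θ χ (B := c⁻¹ • B) ((DD_smul _ _).2 a.2).1
      (by rw [← card_pos, card_smul_s, card_pos]; exact a.1) fun y hy => by
        simpa [mul_assoc] using smul_mk_iff.1 (hx _ (mem_smul_s.1 hy))
    refine ⟨(-1) ^ B.s.card * m, ?_⟩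
    rw [if_pos a, ← c2 c⁻¹, ← Nat.card_congr (stabilizerEquivStabilizerOfOrbitRel
      (show orbitRel C _ (c⁻¹ • B) B from ⟨c⁻¹, rfl⟩)).toEquiv]
    push_cast
    rw [mul_left_comm, ← hm, ← sum_subtype (univ.filter (· ∈ stabilizer C (c⁻¹ • B))) (by simp) φ,
      sum_filter]
    rfl
  refine ⟨-m, ?_⟩
  have c4 : ∑ g, φ g + Nat.card C * m = 0 := by
    refine Eq.trans ?_ c3
    rw [← hm, ← add_sum_erase _ (fun B => if DD W B then _ else _) (mem_univ (⟨∅⟩ : FS C)),
      ← add_sum_erase _ _ (mem_univ (⟨∅⟩ : FS C)), if_neg (by simp), zero_add,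
      if_pos ⟨by simp, (1 : C), by simp⟩]
    congr 1
    · simp only [hI, card_empty, pow_zero, one_mul]
      exact sum_congr rfl fun g _ => (if_pos (FS.ext fun z => by simp [mem_smul_s])).symm
    · refine sum_congr rfl fun B hB => ?_
      have : B.s.Nonempty := nonempty_iff_ne_empty.2 fun e => (mem_erase.1 hB).1 (congrArg FS.mk e)
      simp [this]
  rw [classInner, inv_mul_eq_iff_eq_mul₀ card_ne]
  push_cast
  linear_combination c4

theorem DH.ext (h : DH W) (H : Ex C (Nat.card W) e k) (θ : Irr W) :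
    ∃ χ : Irr C, (∀ w : W, χ.1 w = θ.1 w) ∧ ∀ g, g ^ e = 1 → χ.1 g = θ.1 1 := by
  classical
  have c0 : IsClassFunction W fun w => θ.1 w - θ.1 1 := fun a b => by simp only [cl θ a b]
  set f := xt W (fun w => θ.1 w - θ.1 1) with hf
  have f1 : ∀ w : W, f w = θ.1 w - θ.1 1 := fun w => by
    rw [hf, h.xt_eq c0 (c := 1) (by simp)]; simp
  have f2 : f 1 = 0 := by simpa using f1 1
  set T : C → ℂ := fun g => f (g ^ e) + θ.1 1 with hT
  have c1 : IsClassFunction C T := fun g c => by simp only [hT, conj_pow, hf, h.xt_cl c0 (g ^ e) c]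
  have c2 : ∀ χ : Irr C, ∃ m : ℤ, classInner T χ.1 = m := fun χ => by
    obtain ⟨m, hm⟩ := h.int H θ χ
    have a := inner_irr (triv C) χ
    refine ⟨m + deg θ * if triv C = χ then 1 else 0, ?_⟩
    push_cast
    rw [← hm, ← a]
    simp only [classInner, hT, hf, triv_apply, add_mul, sum_add_distrib, ← mul_sum, deg_eq, one_mul]
    ring
  choose m hm using c2
  have c3 : classInner T T = 1 := by
    have a1 := h.sum H (F := fun y => (f y + θ.1 1) * conj (f y + θ.1 1) - θ.1 1 * conj (θ.1 1))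
      (fun g c => by simp only [hf, h.xt_cl c0 g c]) fun y hy =>
        ⟨by rintro rfl; simp [f2] at hy, xt_ne fun e : f y = 0 => hy (by simp [e])⟩
    have a2 := inner_irr θ θ
    rw [if_pos rfl, classInner, inv_mul_eq_one₀ card_ne] at a2
    simp only [f1, sub_add_cancel, sum_sub_distrib, sum_const, card_univ, ← Nat.card_eq_fintype_card,
      nsmul_eq_mul, ← a2] at a1
    rw [classInner, inv_mul_eq_one₀ card_ne]
    have a3 := congrArg (Nat.cast : ℕ → ℂ) W.index_mul_card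
    push_cast at a3
    simp only [hT]
    linear_combination (1 - θ.1 1 * conj (θ.1 1)) * (-a3) - a1
  rw [parseval c1] at c3
  simp only [← inner_conj T, hm, map_intCast] at c3
  have c4 : ∑ χ, m χ * m χ = 1 := by exact_mod_cast c3
  obtain ⟨χ, -, a1⟩ := exists_ne_zero_of_sum_ne_zero (c4.trans_ne one_ne_zero)
  rw [← add_sum_erase _ _ (mem_univ χ)] at c4
  have a2 := sum_nonneg (s := univ.erase χ) fun ψ _ => mul_self_nonneg (m ψ)
  have a3 := mul_self_nonneg (m χ)
  have a4 := (sum_eq_zero_iff_of_nonneg (s := univ.erase χ) fun ψ _ => mul_self_nonneg (m ψ)).1 (by omega)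
  have a5 : ∀ g, T g = m χ * χ.1 g := fun g => by
    rw [expand c1, ← add_sum_erase _ _ (mem_univ χ), sum_eq_zero fun ψ hψ => by
      rw [hm, mul_self_eq_zero.1 (a4 ψ hψ)]; simp, hm, add_zero]
  have a6 : m χ = 1 := by
    have := a5 1
    simp only [hT, one_pow, f2, zero_add, deg_eq] at this
    have b1 : (deg θ : ℤ) = m χ * deg χ := by exact_mod_cast this
    have b2 := deg_pos θ
    rcases mul_self_eq_one_iff.1 (show m χ * m χ = 1 by omega) with b | b <;> rw [b] at b1 ⊢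
    omega
  simp only [a6, Int.cast_one, one_mul] at a5
  refine ⟨χ, fun w => ?_, fun g hg => ?_⟩
  · rw [← a5]
    simp only [hT]
    rw [← Subgroup.coe_pow, H.mem, f1, sub_add_cancel]
  · rw [← a5]
    simp only [hT, hg, f2, zero_add]

theorem dade {C : Type*} [Group C] [Finite C] (W : Subgroup C)
    (hS : ∀ Y ≤ W, Y ≠ ⊥ → ∃ S : Subgroup C, (Nat.card S).Coprime (Nat.card W) ∧
      S ≤ Subgroup.centralizer (Y : Set C) ∧
      (∀ g : C, (∀ y ∈ Y, g * y * g⁻¹ ∈ Y) → ∀ s ∈ S, g * s * g⁻¹ ∈ S) ∧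
      ∀ g : C, (∀ y ∈ Y, g⁻¹ * y * g ∈ W) → ∃ s ∈ S, s⁻¹ * g ∈ W) :
    ∀ w ∈ W, w ∈ Subgroup.closure {g : C | (orderOf g).Coprime (Nat.card W)} → w = 1 := by
  classical
  intro w hw hc
  have := Fintype.ofFinite C
  have h : DH W := fun Y a b => (hS Y a b).imp fun S a => ⟨a.1, a.2.1, a.2.2.1, a.2.2.2⟩
  obtain ⟨e, k, H⟩ := exists_Ex C (Nat.card_pos (α := W))
  have a1 : ∀ θ : Irr W, θ.1 ⟨w, hw⟩ = θ.1 1 := fun θ => by
    obtain ⟨χ, b⟩ := h.ext H θ
    obtain ⟨χ, n, ρ, hρ, rfl⟩ := χ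
    obtain ⟨b1, b2⟩ := b
    have b3 : ρ w = 1 := congrArg Units.val ((closure_le ρ.asGroupHom.ker).2 (fun g hg =>
      Units.ext (rep_eq_one ρ fun j => (b2 _ (by rw [pow_right_comm, H.h3 g hg, one_pow])).trans
        (b2 _ (one_pow _)).symm)) hc)
    rw [← b1, ← b1]
    change ρ.character w = ρ.character 1
    rw [Representation.character, Representation.character, b3, map_one ρ]
  have a2 := column (1 : W) ⟨w, hw⟩
  have a3 := column (1 : W) 1
  simp only [a1] at a2
  rw [a2, if_pos (IsConj.refl _)] at a3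
  by_contra hn
  rw [if_neg fun e => hn (congrArg Subtype.val (isConj_one_right.1 e))] at a3
  exact Nat.card_pos.ne' (Nat.cast_eq_zero.1 a3.symm)

end Cfsg.Agent.Sg
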