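import Cfsg.Agent.H2.Tr1
import Cfsg.Agent.Bd.Syl

/-! Local analysis for a Dade type normal complement theorem. -/

set_option autoImplicit false
set_option linter.unusedSectionVars false

namespace Cfsg.Agent.Sg

open Subgroup MulAction Cfsg.Agent.Bd

theorem exists_cop (m : ℕ) : ∀ N : ℕ, N ≠ 0 → ∃ b k, Nat.Coprime b m ∧ N ∣ b * m ^ k := fun N => by
  induction N using Nat.strong_induction_on with
  | _ N ih =>
  intro hN
  by_cases h : N.gcd m = 1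
  · exact ⟨N, 0, h, by simp⟩
  obtain ⟨N', e⟩ := N.gcd_dvd_left m
  have h0 : N' ≠ 0 := by rintro rfl; exact hN e
  have h1 : N.gcd m ≠ 0 := fun a => hN (by rw [e, a, zero_mul])
  obtain ⟨b, k, h2, h3⟩ := ih N' (by
    rw [e]; exact lt_mul_of_one_lt_left (Nat.pos_of_ne_zero h0) (by omega)) h0
  refine ⟨b, k + 1, h2, ?_⟩
  rw [e, pow_succ, ← mul_assoc, mul_comm]
  exact mul_dvd_mul h3 (N.gcd_dvd_right m)

variable {C : Type*} [Group C] [Finite C]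

/-- `g ^ e` is the part of `g` belonging to the primes dividing `m` -/
structure Ex (C : Type*) [Group C] (m e k : ℕ) : Prop where
  h1 : ∀ x : C, x ^ m ^ (k + 1) = 1 → x ^ e = x
  h2 : ∀ x : C, (x ^ e) ^ m ^ (k + 1) = 1
  h3 : ∀ x : C, (orderOf x).Coprime m → x ^ e = 1

theorem exists_Ex (C : Type*) [Group C] [Finite C] {m : ℕ} (hm : 0 < m) : ∃ e k, Ex C m e k := by
  obtain ⟨b, k, h1, h2⟩ := exists_cop m (Nat.card C) Nat.card_pos.ne'
  obtain ⟨r, hr⟩ : ∃ r, (m ^ (k + 1)).totient = r + 1 :=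
    ⟨_, (Nat.succ_pred_eq_of_pos (Nat.totient_pos.2 (pow_pos hm _))).symm⟩
  have h3 := Nat.ModEq.pow_totient (h1.pow_right (k + 1))
  rw [hr] at h3
  refine ⟨b ^ (r + 1), k, fun x hx => ?_, fun x => ?_, fun x hx => ?_⟩
  · rw [pow_eq_pow_of_modEq h3 hx, pow_one]
  · rw [← pow_mul]
    exact orderOf_dvd_iff_pow_eq_one.1 ((orderOf_dvd_natCard x).trans (h2.trans
      ⟨b ^ r * m, by ring⟩))
  · exact orderOf_dvd_iff_pow_eq_one.1 (((hx.pow_right k).dvd_of_dvd_mul_right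
      ((orderOf_dvd_natCard x).trans h2)).trans (dvd_pow_self b (by omega)))

theorem smul_mk_iff {W : Subgroup C} {y c : C} : y • (c : C ⧸ W) = c ↔ c⁻¹ * y * c ∈ W := by
  rw [Quotient.smul_coe, eq_comm, QuotientGroup.eq, mul_assoc]; rfl

/-- the local complement -/
structure LS (W Y S : Subgroup C) : Prop where
  cop : (Nat.card S).Coprime (Nat.card W)
  cen : S ≤ centralizer (Y : Set C)
  nrm : ∀ g : C, (∀ y ∈ Y, g * y * g⁻¹ ∈ Y) → ∀ s ∈ S, g * s * g⁻¹ ∈ S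
  fac : ∀ g : C, (∀ y ∈ Y, g⁻¹ * y * g ∈ W) → ∃ s ∈ S, s⁻¹ * g ∈ W

variable {W Y S : Subgroup C}

theorem LS.one (h : LS W Y S) {x : C} (h1 : x ∈ S) (h2 : x ∈ W) : x = 1 := by
  have := (inf_eq_bot_of_coprime h.cop).le ⟨h1, h2⟩
  exact this

theorem LS.card_fix (h : LS W Y S) (hY : Y ≤ W) :
    {x : C ⧸ W | Y ≤ stabilizer C x}.ncard = Nat.card S := by
  symm
  refine Nat.card_congr (Equiv.ofBijective (fun s => ⟨((s : C) : C ⧸ W), fun y hy => smul_mk_iff.2 ?_⟩)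
    ⟨fun s t e => ?_, fun ⟨x, hx⟩ => ?_⟩)
  · rw [mul_assoc, h.cen s.2 y hy, inv_mul_cancel_left]; exact hY hy
  · exact Subtype.ext (inv_mul_eq_one.1 (h.one (S.mul_mem (S.inv_mem s.2) t.2)
      (QuotientGroup.eq.1 (congrArg Subtype.val e))))
  · obtain ⟨c, rfl⟩ := QuotientGroup.mk_surjective x
    obtain ⟨s, hs, e⟩ := h.fac c fun y hy => smul_mk_iff.1 (hx hy)
    exact ⟨⟨s, hs⟩, Subtype.ext (QuotientGroup.eq.2 e)⟩

theorem LS.exists_hom (h : LS W Y S) (hY : Y ≤ W) (N : Subgroup C)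
    (hN : ∀ g ∈ N, ∀ y ∈ Y, g * y * g⁻¹ ∈ Y) :
    ∃ ρ : N →* W, ∀ (g : N) (x : W), ρ g = x ↔ (g : C) * (x : C)⁻¹ ∈ S := by
  have ex : ∀ g : N, ∃ x : W, (g : C) * (x : C)⁻¹ ∈ S := fun g => by
    obtain ⟨s, hs, e⟩ := h.fac g fun y hy => hY (by simpa using hN _ (N.inv_mem g.2) y hy)
    exact ⟨⟨_, e⟩, by simpa using hs⟩
  choose r hr using ex
  have un : ∀ (g : N) (x : W), r g = x ↔ (g : C) * (x : C)⁻¹ ∈ S := fun g x =>
    ⟨fun e => e ▸ hr g, fun e => Subtype.ext (mul_inv_eq_one.1 (h.one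
      (by simpa [mul_assoc] using S.mul_mem (S.inv_mem (hr g)) e) (W.mul_mem (r g).2 (W.inv_mem x.2))))⟩
  refine ⟨MonoidHom.mk' r fun g g' => (un _ _).2 ?_, un⟩
  have := S.mul_mem (h.nrm g (hN g g.2) _ (hr g')) (hr g)
  simpa [mul_assoc] using this

theorem ncard_fix_cj (c : C) (Y : Subgroup C) :
    {x : C ⧸ W | cj c Y ≤ stabilizer C x}.ncard = {x : C ⧸ W | Y ≤ stabilizer C x}.ncard := by
  rw [← Set.ncard_preimage_of_injective_subset_range (MulAction.injective c)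
    (by simp [(MulAction.surjective c).range_eq])]
  congr 1
  ext x
  simp only [cj_le, Set.mem_preimage, Set.mem_setOf_eq, mem_stabilizer_iff, mul_smul, inv_smul_smul,
    smul_left_cancel_iff]
  rfl

/-- the hypothesis -/
def DH (W : Subgroup C) : Prop := ∀ Y ≤ W, Y ≠ ⊥ → ∃ S, LS W Y S

theorem DH.cop (h : DH W) (hY : Y ≠ ⊥) {x : C ⧸ W} (hx : Y ≤ stabilizer C x) :
    {x : C ⧸ W | Y ≤ stabilizer C x}.ncard.Coprime (Nat.card W) := by
  obtain ⟨c, rfl⟩ := QuotientGroup.mk_surjective x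
  have h1 : cj c⁻¹ Y ≤ W := cj_le.2 fun y hy => by simpa using smul_mk_iff.1 (hx hy)
  obtain ⟨S, hS⟩ := h _ h1 fun e => hY (card_eq_one.1 (by rw [← card_cj c⁻¹, e, card_bot]))
  rw [← ncard_fix_cj c⁻¹, hS.card_fix h1]
  exact hS.cop

theorem DH.fix (h : DH W) (hY : Y ≠ ⊥) {x : C ⧸ W} (hx : Y ≤ stabilizer C x) {k : ℕ} (n : ℕ) :
    ∀ y : C, orderOf y = n → y ^ Nat.card W ^ k = 1 → (∀ a ∈ Y, y * a * y⁻¹ ∈ Y) →
      ∃ x' : C ⧸ W, Y ≤ stabilizer C x' ∧ y • x' = x' := by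
  induction n using Nat.strong_induction_on with
  | _ n ih =>
  intro y hn hy hN
  by_cases h1 : n = 1
  · exact ⟨x, hx, by rw [orderOf_eq_one_iff.1 (hn.trans h1), one_smul]⟩
  obtain ⟨p, hp, hd⟩ := Nat.exists_prime_and_dvd h1
  have := Fact.mk hp
  have n0 : 0 < n := hn ▸ orderOf_pos y
  obtain ⟨x₁, a1, a2⟩ := ih _ (Nat.div_lt_self n0 hp.one_lt) (y ^ p)
    (by rw [orderOf_pow_of_dvd hp.ne_zero (hn ▸ hd), hn]) (by rw [pow_right_comm, hy, one_pow])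
    (zpowers_norm hN _ (pow_mem (mem_zpowers y) p))
  have a3 := h.cop (Y := Y ⊔ zpowers (y ^ p)) (fun e => hY (eq_bot_iff.2 (le_sup_left.trans e.le)))
    (sup_le a1 (zpowers_le.2 a2))
  set O := {x : C ⧸ W | Y ⊔ zpowers (y ^ p) ≤ stabilizer C x} with hO
  have mO : ∀ x, x ∈ O ↔ Y ≤ stabilizer C x ∧ y ^ p • x = x := fun x => by simp [hO]
  let f : Function.End O := fun x => ⟨y • x.1, (mO _).2 ⟨fun a ha => by
    have := ((mO _).1 x.2).1 (conj_inv_mem hN a ha)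
    rwa [mem_stabilizer_iff, mul_smul, mul_smul, inv_smul_eq_iff] at this, by
    rw [← mul_smul, ← pow_succ, pow_succ', mul_smul, ((mO _).1 x.2).2]⟩⟩
  have f1 : ∀ (j : ℕ) (x : O), ((f ^ j) x : C ⧸ W) = y ^ j • x.1 := fun j x => by
    induction j with
    | zero => rw [pow_zero, pow_zero, one_smul]; rfl
    | succ j ih => rw [pow_succ' y, mul_smul, ← ih, pow_succ']; rfl
  classical
  have := Fintype.ofFinite O
  have f2 := Equiv.Perm.card_fixedPoints_modEq (f := f) (p := p) (n := 1)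
    (funext fun x => Subtype.ext (by rw [f1, pow_one, ((mO _).1 x.2).2]; rfl))
  by_contra hc
  have : IsEmpty f.fixedPoints := ⟨fun x => hc ⟨_, ((mO _).1 x.1.2).1, congrArg Subtype.val x.2⟩⟩
  rw [Fintype.card_eq_zero (α := f.fixedPoints), ← Nat.card_eq_fintype_card] at f2
  exact hp.one_lt.ne' (Nat.eq_one_of_dvd_coprimes a3 (Nat.modEq_zero_iff_dvd.1 f2)
    (hp.dvd_of_dvd_pow (hd.trans (hn ▸ orderOf_dvd_of_pow_eq_one hy))))

theorem DH.fus (h : DH W) {w c : C} (h1 : w ∈ W) (h2 : c⁻¹ * w * c ∈ W) :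
    ∃ x ∈ W, c⁻¹ * w * c = x⁻¹ * w * x := by
  by_cases e : w = 1
  · exact ⟨1, W.one_mem, by simp [e]⟩
  obtain ⟨S, hS⟩ := h _ (zpowers_le.2 h1) (zpowers_ne_bot.2 e)
  obtain ⟨s, hs, e⟩ := hS.fac c (by
    rintro _ ⟨j, rfl⟩
    have := conj_zpow (a := c⁻¹) (b := w) (i := j)
    rw [inv_inv] at this
    exact this ▸ W.zpow_mem h2 j)
  refine ⟨_, e, ?_⟩
  have := hS.cen hs w (mem_zpowers w)
  simp only [mul_inv_rev, inv_inv, mul_assoc]
  rw [← mul_assoc s, ← this]; simp [mul_assoc]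

variable {e k : ℕ}

theorem Ex.mem (H : Ex C (Nat.card W) e k) (x : W) : x ^ e = x :=
  Subtype.ext (H.h1 x (by
    rw [pow_succ', pow_mul, ← Subgroup.coe_pow, pow_card_eq_one']; simp))

theorem Ex.memS (H : Ex C (Nat.card W) e k) (h : LS W Y S) {s : C} (hs : s ∈ S) : s ^ e = 1 :=
  H.h3 s (h.cop.coprime_dvd_left (orderOf_dvd_natCard S hs))

theorem DH.count (h : DH W) (H : Ex C (Nat.card W) e k) {y c : C} (h1 : y ≠ 1) (h2 : c⁻¹ * y * c ∈ W) :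
    {g : C | g ^ e = y}.ncard = {x : C ⧸ W | y • x = x}.ncard := by
  obtain ⟨w, rfl⟩ : ∃ w, y = c * w * c⁻¹ := ⟨c⁻¹ * y * c, by group⟩
  replace h2 : w ∈ W := by simpa [mul_assoc] using h2
  replace h1 : w ≠ 1 := by rintro rfl; simp at h1
  obtain ⟨S, hS⟩ := h _ (zpowers_le.2 h2) (zpowers_ne_bot.2 h1)
  have a1 := ncard_fix_cj (W := W) c (zpowers w)
  rw [hS.card_fix (zpowers_le.2 h2), cj, MonoidHom.map_zpowers] at a1
  simp only [zpowers_le, mem_stabilizer_iff] at a1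
  refine Eq.trans ?_ a1.symm
  obtain ⟨ρ, hρ⟩ := hS.exists_hom (zpowers_le.2 h2) (centralizer {w}) (by
    rintro g hg _ ⟨j, rfl⟩
    rw [(Commute.zpow_right (mem_centralizer_singleton_iff.1 hg) j).eq, mul_inv_cancel_right]
    exact ⟨j, rfl⟩)
  symm
  refine Nat.card_congr (Equiv.ofBijective (fun s => ⟨c * (s * w) * c⁻¹, ?_⟩)
    ⟨fun s t e => Subtype.ext (by simpa using e), fun ⟨g, hg⟩ => ?_⟩)
  · have e1 : Commute (s : C) w := (hS.cen s.2 w (mem_zpowers w)).symm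
    rw [Set.mem_setOf_eq, conj_pow, e1.mul_pow, H.memS hS s.2, one_mul]
    exact congrArg (fun x : W => c * x * c⁻¹) (H.mem ⟨w, h2⟩)
  · obtain ⟨g, rfl⟩ : ∃ g', g = c * g' * c⁻¹ := ⟨c⁻¹ * g * c, by group⟩
    have e1 : g ^ e = w := by simpa [conj_pow] using hg
    have m : g ∈ centralizer {w} := mem_centralizer_singleton_iff.2 (e1 ▸ (Commute.refl g).pow_right e)
    have e2 : ρ (⟨g, m⟩ ^ e) = ⟨w, h2⟩ := (hρ _ _).2 (by simp [e1])
    rw [map_pow, H.mem] at e2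
    exact ⟨⟨_, (hρ _ _).1 e2⟩, Subtype.ext (by simp)⟩

end Cfsg.Agent.Sg
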